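import Groth.Agent.Gaga.H277.DiffAt
import Mathlib.AlgebraicGeometry.AffineSpace

/-!
# Complex points and holomorphic functions of affine space

`homeo n : An.Pts (𝔸(Fin n; An.SC)) ≃ₜ (Fin n → ℂ)` and the description of holomorphic functions.
-/

set_option autoImplicit false
open CategoryTheory AlgebraicGeometry Topology TopologicalSpace Opposite Filter
open Groth.Agent.An.H863.PtsBasic Groth.Agent.An.H863.PtsCont

noncomputable section

namespace Groth.Agent.Gaga.H277.AffSp

variable {n : ℕ}

/-- Coordinates of a complex point of affine space. -/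
def coords (x : An.Pts (𝔸(Fin n; An.SC))) : Fin n → ℂ :=
  fun i => x.evTop (AffineSpace.coord An.SC i)

/-- The complex point with given coordinates. -/
def point (z : Fin n → ℂ) : An.Pts (𝔸(Fin n; An.SC)) :=
  ⟨AffineSpace.homOfVector (𝟙 An.SC) (fun i => (Scheme.ΓSpecIso (CommRingCat.of ℂ)).inv (z i)),
    AffineSpace.homOfVector_over _ _⟩

lemma evTop_eq {X : Scheme.{0}} [X.Over An.SC] (x : An.Pts X) (f : Γ(X, ⊤)) :
    x.evTop f = (Scheme.ΓSpecIso (CommRingCat.of ℂ)).hom (x.1.appTop f) := by
  have h2 : x.1.appLE ⊤ ⊤ (An.Pts.top_le_preimage x (Opens.mem_top _)) = x.1.appTop := by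
    simp [Scheme.Hom.appLE, Scheme.Hom.appTop]
  unfold An.Pts.evTop An.Pts.ev
  rw [h2]

lemma coords_point (z : Fin n → ℂ) : coords (point z) = z := by
  funext i
  change (point z).evTop (AffineSpace.coord An.SC i) = z i
  rw [evTop_eq]
  have h : (point z).1.appTop (AffineSpace.coord An.SC i) =
      (Scheme.ΓSpecIso (CommRingCat.of ℂ)).inv (z i) :=
    AffineSpace.homOfVector_appTop_coord _ _ i
  rw [h, ← ConcreteCategory.comp_apply, Iso.inv_hom_id]
  rfl

lemma coords_injective : Function.Injective (coords (n := n)) := by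
  intro x y h
  apply Subtype.ext
  apply AffineSpace.hom_ext
  · exact x.2.trans y.2.symm
  · intro i
    have h1 := congrFun h i
    change x.evTop (AffineSpace.coord An.SC i) = y.evTop (AffineSpace.coord An.SC i) at h1
    rw [evTop_eq, evTop_eq] at h1
    have hinj : Function.Injective (Scheme.ΓSpecIso (CommRingCat.of ℂ)).hom :=
      ((ConcreteCategory.isIso_iff_bijective _).mp inferInstance).1
    exact hinj h1

lemma point_coords (x : An.Pts (𝔸(Fin n; An.SC))) : point (coords x) = x :=
  coords_injective (coords_point _)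

lemma continuous_coords : Continuous (coords (n := n)) :=
  continuous_pi fun _ => continuous_evTop _

/-- The sections of affine space over ℂ are polynomials in the coordinates. -/
lemma surjective_eval : Function.Surjective
    (MvPolynomial.eval₂Hom (strU (⊤ : (𝔸(Fin n; An.SC)).Opens)) (AffineSpace.coord An.SC)) := by
  have h1 := AffineSpace.SpecIso_hom_appTop (n := Fin n) (CommRingCat.of ℂ)
  have h2 : IsIso (AffineSpace.SpecIso (Fin n) (CommRingCat.of ℂ)).hom.appTop :=
    inferInstanceAs (IsIso (Scheme.Γ.map (AffineSpace.SpecIso (Fin n) (CommRingCat.of ℂ)).hom.op))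
  rw [h1] at h2
  have h3 : IsIso (CommRingCat.ofHom (MvPolynomial.eval₂Hom ((Scheme.ΓSpecIso (CommRingCat.of ℂ)).inv ≫
        (𝔸(Fin n; Spec (CommRingCat.of ℂ)) ↘ Spec (CommRingCat.of ℂ)).appTop).hom
          (AffineSpace.coord (Spec (CommRingCat.of ℂ))))) := IsIso.of_isIso_comp_left
          (Scheme.ΓSpecIso (CommRingCat.of (MvPolynomial (Fin n) (CommRingCat.of ℂ)))).hom _
  have h4 := ((ConcreteCategory.isIso_iff_bijective _).mp h3).2
  have h5 : strU (⊤ : (𝔸(Fin n; An.SC)).Opens) = ((Scheme.ΓSpecIso (CommRingCat.of ℂ)).inv ≫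
        (𝔸(Fin n; Spec (CommRingCat.of ℂ)) ↘ Spec (CommRingCat.of ℂ)).appTop).hom := by
    ext c
    change (𝔸(Fin n; An.SC)).presheaf.map (homOfLE le_top).op (An.strHom _ c) = _
    have : (homOfLE (le_top : (⊤ : (𝔸(Fin n; An.SC)).Opens) ≤ ⊤)).op = 𝟙 _ := rfl
    rw [this, (𝔸(Fin n; An.SC)).presheaf.map_id]
    rfl
  rw [h5]
  exact h4

lemma continuous_point : Continuous (point (n := n)) := by
  rw [continuous_iff_continuousAt]
  intro z
  refine continuousAt_of_affine_gen _ z ⊤ (isAffineOpen_top _) (Eventually.of_forall fun _ => trivial)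
    (AffineSpace.coord An.SC) surjective_eval fun i => ?_
  have : (fun t : Fin n → ℂ => evAt (point t) ⊤ (AffineSpace.coord An.SC i)) = fun t => t i := by
    funext t
    rw [evAt_top]
    exact congrFun (coords_point t) i
  rw [this]
  exact (continuous_apply i).continuousAt

variable (n) in
/-- Complex points of affine space. -/
def homeo : An.Pts (𝔸(Fin n; An.SC)) ≃ₜ (Fin n → ℂ) where
  toFun := coords
  invFun := point
  left_inv := point_coords
  right_inv := coords_point
  continuous_toFun := continuous_coords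
  continuous_invFun := continuous_point

@[simp] lemma homeo_apply (x : An.Pts (𝔸(Fin n; An.SC))) : homeo n x = coords x := rfl
@[simp] lemma homeo_symm_apply (z : Fin n → ℂ) : (homeo n).symm z = point z := rfl

/-- Regular functions are complex-differentiable in the coordinates. -/
lemma differentiableAt_evAt (W : (𝔸(Fin n; An.SC)).Opens) (f : Γ(𝔸(Fin n; An.SC), W)) (z : Fin n → ℂ)
    (hz : (point z).pt ∈ W) : DifferentiableAt ℂ (fun t => evAt (point t) W f) z := by
  refine DiffAt.differentiableAt_of_affine_gen _ z ⊤ (isAffineOpen_top _)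
    (Eventually.of_forall fun _ => trivial)
    (AffineSpace.coord An.SC) surjective_eval (fun i => ?_) W f hz
  have : (fun t : Fin n → ℂ => evAt (point t) ⊤ (AffineSpace.coord An.SC i)) = fun t => t i := by
    funext t
    rw [evAt_top]
    exact congrFun (coords_point t) i
  rw [this]
  exact differentiableAt_apply i z

open Classical in
/-- A function on an open set of complex points, read in coordinates and extended by zero. -/
def ext {U : Opens (An.Pts (𝔸(Fin n; An.SC)))} (g : U → ℂ) (z : Fin n → ℂ) : ℂ :=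
  if h : point z ∈ U then g ⟨point z, h⟩ else 0

lemma ext_of_mem {U : Opens (An.Pts (𝔸(Fin n; An.SC)))} (g : U → ℂ) {z : Fin n → ℂ}
    (h : point z ∈ U) : ext g z = g ⟨point z, h⟩ := dif_pos h

lemma ext_coords {U : Opens (An.Pts (𝔸(Fin n; An.SC)))} (g : U → ℂ) (x : U) :
    ext g (coords x.1) = g x := by
  rw [ext_of_mem g (by rw [point_coords]; exact x.2)]
  congr 1
  exact Subtype.ext (point_coords x.1)

lemma eventually_mem {U : Opens (An.Pts (𝔸(Fin n; An.SC)))} {z : Fin n → ℂ}
    (h : point z ∈ U) : ∀ᶠ t in 𝓝 z, point t ∈ U :=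
  continuous_point.continuousAt.eventually (U.isOpen.mem_nhds h)

lemma differentiableAt_of_isChartFun {U : Opens (An.top (𝔸(Fin n; An.SC)))} {g : U → ℂ}
    (hg : An.IsChartFun U g) (z : Fin n → ℂ) (hz : point z ∈ U) :
    DifferentiableAt ℂ (ext (U := U) g) z := by
  obtain ⟨W, hW, m, s, V, G, hV, hG, h⟩ := hg
  have h1 : DifferentiableAt ℂ (fun t : Fin n → ℂ => fun i => evAt (point t) W (s i)) z :=
    differentiableAt_pi.mpr fun i => differentiableAt_evAt W (s i) z (hW ⟨_, hz⟩)
  have h2 : ∀ t (ht : point t ∈ U), (fun i => evAt (point t) W (s i)) =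
      (fun i => An.Pts.ev (point t) W (hW ⟨_, ht⟩) (s i)) := fun t ht =>
    funext fun i => evAt_of_mem (hW ⟨_, ht⟩) (s i)
  have h3 : DifferentiableAt ℂ G (fun i => evAt (point z) W (s i)) := by
    rw [h2 z hz]
    exact hG.differentiableAt (hV.mem_nhds (h ⟨_, hz⟩).1)
  refine DifferentiableAt.congr_of_eventuallyEq
    (f := fun t : Fin n → ℂ => G (fun i => evAt (point t) W (s i))) (h3.comp z h1) ?_
  filter_upwards [eventually_mem (U := U) hz] with t ht
  rw [ext_of_mem (U := U) g ht, h2 t ht]
  exact (h ⟨_, ht⟩).2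

lemma differentiableAt_of_mem_chartAlg {U : Opens (An.top (𝔸(Fin n; An.SC)))} {g : U → ℂ}
    (hg : g ∈ An.chartAlg U) (z : Fin n → ℂ) (hz : point z ∈ U) :
    DifferentiableAt ℂ (ext (U := U) g) z := by
  induction hg using Algebra.adjoin_induction with
  | mem g hg => exact differentiableAt_of_isChartFun hg z hz
  | algebraMap c =>
    refine DifferentiableAt.congr_of_eventuallyEq (f := fun _ => c) (differentiableAt_const _) ?_
    filter_upwards [eventually_mem (U := U) hz] with t ht
    rw [ext_of_mem (U := U) _ ht]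
    rfl
  | add f g _ _ hf hg =>
    refine DifferentiableAt.congr_of_eventuallyEq (hf.fun_add hg) ?_
    filter_upwards [eventually_mem (U := U) hz] with t ht
    rw [ext_of_mem (U := U) _ ht, ext_of_mem (U := U) _ ht, ext_of_mem (U := U) _ ht]
    rfl
  | mul f g _ _ hf hg =>
    refine DifferentiableAt.congr_of_eventuallyEq (hf.fun_mul hg) ?_
    filter_upwards [eventually_mem (U := U) hz] with t ht
    rw [ext_of_mem (U := U) _ ht, ext_of_mem (U := U) _ ht, ext_of_mem (U := U) _ ht]
    rfl

lemma differentiableAt_of_holPred {U : Opens (An.top (𝔸(Fin n; An.SC)))} {g : U → ℂ}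
    (hg : (An.holPred (𝔸(Fin n; An.SC))).pred g) (z : Fin n → ℂ) (hz : point z ∈ U) :
    DifferentiableAt ℂ (ext (U := U) g) z := by
  obtain ⟨V, hV, i, h⟩ := hg ⟨_, hz⟩
  have h1 := differentiableAt_of_mem_chartAlg (U := V) (show _ ∈ An.chartAlg V from h) z hV
  refine DifferentiableAt.congr_of_eventuallyEq h1 ?_
  filter_upwards [eventually_mem (U := V) hV] with t ht
  rw [ext_of_mem (U := U) _ (i.le ht), ext_of_mem (U := V) _ ht]
  rfl

/-- Holomorphic functions on an open set of affine space are the complex-differentiable functions of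
the coordinates. -/
theorem holPred_iff (U : Opens (An.top (𝔸(Fin n; An.SC)))) (g : U → ℂ) :
    (An.holPred (𝔸(Fin n; An.SC))).pred g ↔
      ∀ z : Fin n → ℂ, point z ∈ U → DifferentiableAt ℂ (ext (U := U) g) z := by
  refine ⟨fun h z hz => differentiableAt_of_holPred h z hz, fun h => ?_⟩
  apply An.holPred_of_chartAlg
  apply Algebra.subset_adjoin
  refine ⟨⊤, fun _ => trivial, n, AffineSpace.coord An.SC, {z | point z ∈ U}, ext (U := U) g,
    U.isOpen.preimage continuous_point, fun z hz => (h z hz).differentiableWithinAt, fun x => ?_⟩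
  have hx : (fun i => An.Pts.ev x.1 ⊤ trivial (AffineSpace.coord An.SC i)) = coords x.1 := rfl
  refine ⟨?_, ?_⟩
  · change point (coords x.1) ∈ U
    rw [point_coords]
    exact x.2
  · exact (ext_coords (U := U) g x).symm

end Groth.Agent.Gaga.H277.AffSp
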