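import Groth.Agent.Gaga.H277.OpenHol

/-!
# Restriction of `hol`-modules along an open immersion

For an open immersion `j : X ⟶ Y` over ℂ: the restriction functor `anRestrict j : AnMod Y ⥤ AnMod X`
(sections over `V` are sections over `j(V)`), left adjoint to `An.anPushMap j`, and the isomorphism
`(M^an)|_X ≅ (M|_X)^an`, compatible with the units.
-/

set_option autoImplicit false
open CategoryTheory AlgebraicGeometry Topology TopologicalSpace Opposite

noncomputable section

namespace Groth.Agent.Gaga.H277.AnRestr

open Groth.Agent.Gaga.H277.OpenHol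

variable {X Y : Scheme.{0}} [X.Over An.SC] [Y.Over An.SC] (j : X ⟶ Y) [j.IsOver An.SC]
  [IsOpenImmersion j]

instance imF_isContinuous : (imF j).IsContinuous (An.JA X) (An.JA Y) :=
  (isOpenEmbedding j).functor_isContinuous

/-- `hol_X → j^{-1} hol_Y` as sheaves of rings. -/
def restrHom : An.holRing X ⟶
    ((imF j).sheafPushforwardContinuous RingCat.{0} (An.JA X) (An.JA Y)).obj (An.holRing Y) where
  hom := Functor.whiskerRight (holTrans j) _

/-- Restriction of `hol`-modules along the open immersion `j`. -/
def anRestrict : An.AnMod Y ⥤ An.AnMod X :=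
  SheafOfModules.pushforward (F := imF j) (J := An.JA X) (K := An.JA Y) (restrHom j)

/-- Restriction is left adjoint to direct image. -/
def anRestrictAdj : anRestrict j ⊣ An.anPushMap j := by
  refine SheafOfModules.pushforwardPushforwardAdj
    (by exact (isOpenEmbedding j).isOpenMap.adjunction) _ _ ?_ ?_
  · ext U g
    apply Subtype.ext
    funext y
    refine congrArg g.1 (Subtype.ext ?_)
    exact (map_pre j (V := (Opens.map (An.topMap j)).obj U.unop) y).symm
  · ext U g
    apply Subtype.ext
    funext x
    exact congrArg g.1 (pre_map j x)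

/-- The unit of the adjunction is restriction of sections. -/
lemma anRestrictAdj_unit_app (N : An.AnMod Y) (V : (Opens (An.top Y))ᵒᵖ) (x : N.val.obj V) :
    ((anRestrictAdj j).unit.app N).val.app V x =
      N.val.map (((isOpenEmbedding j).isOpenMap.adjunction.counit.app V.unop).op) x := rfl

/-- The counit of the adjunction is restriction along an equality of opens. -/
lemma anRestrictAdj_counit_app (N : An.AnMod X) (V : (Opens (An.top X))ᵒᵖ)
    (x : ((An.anPushMap j ⋙ anRestrict j).obj N).val.obj V) :
    ((anRestrictAdj j).counit.app N).val.app V x =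
      N.val.map (((isOpenEmbedding j).isOpenMap.adjunction.unit.app V.unop).op) x := rfl

/-- Direct image of modules along the two factorizations of `X(ℂ) → Y`. -/
def pushIso : An.anPush X ⋙ Scheme.Modules.pushforward j ≅ An.anPushMap j ⋙ An.anPush Y :=
  An.pushCompIso j

/-- `(M^an)|_X ≅ (M|_X)^an`, naturally in the module `M` on `Y`. -/
def restrIso : An.analytify Y ⋙ anRestrict j ≅
    Scheme.Modules.restrictFunctor j ⋙ An.analytify X :=
  (conjugateIsoEquiv ((Scheme.Modules.restrictAdjunction j).comp (An.analytifyAdj X))
    ((An.analytifyAdj Y).comp (anRestrictAdj j))).symm (pushIso j)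

end Groth.Agent.Gaga.H277.AnRestr
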