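import Groth.Prelude.Def_AnHol

/-!
# The unit sections of the analytification of a module

For an `O_X`-module `M` and `s ∈ M(U)` we write `an M U s` for the section `s^an` of `M^an` over
`U(ℂ)`.  Morphisms out of `M^an` are determined by their values on these sections.
-/

set_option autoImplicit false
open CategoryTheory AlgebraicGeometry Topology TopologicalSpace Opposite

noncomputable section

namespace Groth.Agent.Gaga.H277.AnUnit

variable {X : Scheme.{0}} [X.Over An.SC]

/-- The abelian presheaf underlying a `hol`-module. -/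
abbrev pre (N : An.AnMod X) : TopCat.Presheaf Ab.{0} (An.top X) := N.val.presheaf

/-- The open `U(ℂ)`. -/
abbrev opn (U : X.Opens) : Opens (An.top X) := (An.baseF X).obj U

instance (N : An.AnMod X) (V : Opens (An.top X)) :
    Module ((An.holPresheaf X).obj (op V)) ((pre N).obj (op V)) := (N.val.obj (op V)).isModule

/-- The action on sections of a morphism of `hol`-modules. -/
def app {N N' : An.AnMod X} (φ : N ⟶ N') (V : Opens (An.top X)) :
    (pre N).obj (op V) ⟶ (pre N').obj (op V) :=
  (forget₂ _ _).map (φ.val.app (op V))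

lemma app_smul {N N' : An.AnMod X} (φ : N ⟶ N') (V : Opens (An.top X))
    (r : (An.holPresheaf X).obj (op V)) (x : (pre N).obj (op V)) :
    app φ V (r • x) = r • app φ V x :=
  (φ.val.app (op V)).hom.map_smul r x

lemma app_res {N N' : An.AnMod X} (φ : N ⟶ N') {V V' : Opens (An.top X)} (i : V' ⟶ V)
    (x : (pre N).obj (op V)) :
    app φ V' ((pre N).map i.op x) = (pre N').map i.op (app φ V x) :=
  PresheafOfModules.naturality_apply φ.val i.op x

@[simp] lemma app_id (N : An.AnMod X) (V : Opens (An.top X)) (x : (pre N).obj (op V)) :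
    app (𝟙 N) V x = x := rfl

@[simp] lemma app_comp {N N' N'' : An.AnMod X} (φ : N ⟶ N') (ψ : N' ⟶ N'')
    (V : Opens (An.top X)) (x : (pre N).obj (op V)) :
    app (φ ≫ ψ) V x = app ψ V (app φ V x) := rfl

lemma map_smul (N : An.AnMod X) {V V' : Opens (An.top X)} (i : V' ⟶ V)
    (r : (An.holPresheaf X).obj (op V)) (x : (pre N).obj (op V)) :
    (pre N).map i.op (r • x) = (An.holPresheaf X).map i.op r • (pre N).map i.op x :=
  N.val.map_smul i.op r x

lemma hom_ext_app {N N' : An.AnMod X} {φ ψ : N ⟶ N'}
    (h : ∀ (V : Opens (An.top X)) (x : (pre N).obj (op V)), app φ V x = app ψ V x) : φ = ψ := by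
  apply SheafOfModules.hom_ext
  ext V x
  exact h V.unop x

/-- Regular functions as holomorphic functions. -/
def toHol (U : X.Opens) : Γ(X, U) →+* (An.holPresheaf X).obj (op (opn U)) := (An.toHolApp U).hom

lemma toHol_apply (U : X.Opens) (a : Γ(X, U)) (x : opn U) :
    (toHol U a).1 x = An.Pts.ev x.1 U x.2 a := rfl

/-- The section `s^an` of `M^an` over `U(ℂ)` attached to `s ∈ M(U)`. -/
def an (M : X.Modules) (U : X.Opens) :
    Γ(M, U) →+ (pre ((An.analytify X).obj M)).obj (op (opn U)) :=
  (((An.analytifyAdj X).unit.app M : M ⟶ (An.anPush X).obj ((An.analytify X).obj M)).app U).hom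

lemma an_res (M : X.Modules) {U V : X.Opens} (i : V ⟶ U) (s : Γ(M, U)) :
    (pre ((An.analytify X).obj M)).map ((An.baseF X).map i).op (an M U s) =
      an M V (M.presheaf.map i.op s) :=
  (PresheafOfModules.naturality_apply ((An.analytifyAdj X).unit.app M).val i.op s).symm

lemma an_smul (M : X.Modules) (U : X.Opens) (a : Γ(X, U)) (s : Γ(M, U)) :
    an M U (a • s) = toHol U a • an M U s :=
  (((An.analytifyAdj X).unit.app M).val.app (op U)).hom.map_smul a s

lemma an_map {M M' : X.Modules} (φ : M ⟶ M') (U : X.Opens) (s : Γ(M, U)) :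
    app ((An.analytify X).map φ) (opn U) (an M U s) = an M' U (φ.app U s) := by
  have h := (An.analytifyAdj X).unit.naturality φ
  exact (ConcreteCategory.congr_hom (congrArg (fun k => Scheme.Modules.Hom.app k U) h) s).symm

/-- The value on unit sections of the morphism `M^an ⟶ N` attached to `M ⟶ N|_X`. -/
lemma homEquiv_symm_an {M : X.Modules} {N : An.AnMod X} (ψ : M ⟶ (An.anPush X).obj N)
    (U : X.Opens) (s : Γ(M, U)) :
    app (((An.analytifyAdj X).homEquiv M N).symm ψ) (opn U) (an M U s) =
      (ψ.app U s : (pre N).obj (op (opn U))) := by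
  have h : ((An.analytifyAdj X).homEquiv M N) (((An.analytifyAdj X).homEquiv M N).symm ψ) = ψ :=
    Equiv.apply_symm_apply _ _
  rw [Adjunction.homEquiv_unit] at h
  exact ConcreteCategory.congr_hom (congrArg (fun k => Scheme.Modules.Hom.app k U) h) s

lemma homEquiv_app {M : X.Modules} {N : An.AnMod X} (φ : (An.analytify X).obj M ⟶ N)
    (U : X.Opens) (s : Γ(M, U)) :
    ((((An.analytifyAdj X).homEquiv M N) φ).app U s : (pre N).obj (op (opn U))) =
      app φ (opn U) (an M U s) := by
  rw [Adjunction.homEquiv_unit]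
  rfl

/-- Morphisms out of `M^an` are determined by their values on unit sections. -/
lemma hom_ext {M : X.Modules} {N : An.AnMod X} {φ ψ : (An.analytify X).obj M ⟶ N}
    (h : ∀ (U : X.Opens) (s : Γ(M, U)), app φ (opn U) (an M U s) = app ψ (opn U) (an M U s)) :
    φ = ψ := by
  apply ((An.analytifyAdj X).homEquiv M N).injective
  apply Scheme.Modules.hom_ext
  intro U
  ext s
  refine (homEquiv_app φ U s).trans ((h U s).trans (homEquiv_app ψ U s).symm)

section baseChange

variable {Y : Scheme.{0}} [Y.Over An.SC] (f : X ⟶ Y) [f.IsOver An.SC]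

lemma opn_preimage (U : Y.Opens) : opn (f ⁻¹ᵁ U) = (An.mapF f).obj (opn U) := rfl

/-- The base change map on unit sections: `t^an ↦ t^an` for `t ∈ (f_* M)(U) = M(f⁻¹ U)`. -/
theorem anBaseChange_an (M : X.Modules) (U : Y.Opens) (t : Γ(M, f ⁻¹ᵁ U)) :
    app (An.anBaseChange f M) (opn U) (an ((An.pushMod f).obj M) U t) =
      (an M (f ⁻¹ᵁ U) t :
        (pre ((An.analytify X).obj M)).obj (op ((An.mapF f).obj (opn U)))) := by
  refine (homEquiv_symm_an (M := (An.pushMod f).obj M)
    (N := (An.anPushMap f).obj ((An.analytify X).obj M)) _ U t).trans ?_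
  rfl

end baseChange

end Groth.Agent.Gaga.H277.AnUnit
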