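import Groth.Agent.Gaga.H277.AnRestr
import Groth.Agent.Gaga.H277.AnUnit

/-!
# Restriction of analytifications: values on unit sections
-/

set_option autoImplicit false
open CategoryTheory AlgebraicGeometry Topology TopologicalSpace Opposite

noncomputable section

namespace Groth.Agent.Gaga.H277.AnRestrUnit

open Groth.Agent.Gaga.H277.OpenHol Groth.Agent.Gaga.H277.AnRestr Groth.Agent.Gaga.H277.AnUnit

variable {X Y : Scheme.{0}} [X.Over An.SC] [Y.Over An.SC] (j : X ⟶ Y) [j.IsOver An.SC]
  [IsOpenImmersion j]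

/-- `j(j⁻¹(V)) ⟶ V`. -/
def imPre (V : Opens (An.top Y)) : (imF j).obj ((An.mapF j).obj V) ⟶ V :=
  (isOpenEmbedding j).isOpenMap.adjunction.counit.app V

/-- Sections of the restriction. -/
lemma pre_anRestrict (N : An.AnMod Y) (V : Opens (An.top X)) :
    (pre ((anRestrict j).obj N)).obj (op V) = (pre N).obj (op ((imF j).obj V)) := rfl

/-- The isomorphism `(M^an)|_X ≅ (M|_X)^an` on unit sections. -/
theorem restrIso_an (M : Y.Modules) (U : Y.Opens) (s : Γ(M, U)) :
    app ((restrIso j).hom.app M) (opn (j ⁻¹ᵁ U))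
      ((pre ((An.analytify Y).obj M)).map (imPre j (opn U)).op (an M U s) :
        (pre ((anRestrict j).obj ((An.analytify Y).obj M))).obj (op (opn (j ⁻¹ᵁ U)))) =
      an (M.restrict j) (j ⁻¹ᵁ U) (M.presheaf.map (homOfLE (j.image_preimage_le U)).op s) := by
  have h := unit_conjugateEquiv_symm ((Scheme.Modules.restrictAdjunction j).comp (An.analytifyAdj X))
    ((An.analytifyAdj Y).comp (anRestrictAdj j)) (pushIso j).hom M
  exact (ConcreteCategory.congr_hom (congrArg (fun k => Scheme.Modules.Hom.app k U) h) s).symm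

end Groth.Agent.Gaga.H277.AnRestrUnit
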