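import Mathlib.RingTheory.Filtration
import Mathlib.RingTheory.LocalRing.RingHom.Basic
import Mathlib.LinearAlgebra.TensorProduct.Basic
import Mathlib.RingTheory.Ideal.Maps
import Mathlib.RingTheory.TensorProduct.Basic

/-!
# Commutative algebra for closed immersions of analytic spaces

* `ker_le`: the kernel of `B → B'` is generated by the kernel of `A → A'`, for a square of
  local rings with `A/m^n = B/m^n B`, `A'/m'^n = B'/m'^n B'`, `B` Noetherian;
* `bijective_of_tmul`: `B ⊗_A M → B' ⊗_{A'} M'` is bijective.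
-/

set_option autoImplicit false

open IsLocalRing TensorProduct

namespace Groth.Agent.Gaga.H277.ClosedAlg

section Ker

variable {A A' B B' : Type*} [CommRing A] [CommRing A'] [CommRing B] [CommRing B']
  [IsLocalRing A] [IsLocalRing A'] (φ : A →+* B) (φ' : A' →+* B') (α : A →+* A') (β : B →+* B')

/-- the kernel of `β` is generated by the kernel of `α`. -/
theorem ker_le [IsNoetherianRing B] (hcomm : β.comp φ = φ'.comp α) (hα : Function.Surjective α)
    (hmax : ((maximalIdeal A).map φ).IsMaximal)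
    (huniq : ∀ I : Ideal B, I.IsMaximal → I = (maximalIdeal A).map φ)
    (hsurj : ∀ (n : ℕ) (b : B), ∃ a : A, φ a - b ∈ ((maximalIdeal A).map φ) ^ n)
    (hinj : ∀ (n : ℕ) (a : A'), φ' a ∈ ((maximalIdeal A').map φ') ^ n → a ∈ maximalIdeal A' ^ n) :
    RingHom.ker β ≤ (RingHom.ker α).map φ := by
  have hloc : IsLocalRing B := IsLocalRing.of_unique_max_ideal ⟨_, hmax, huniq⟩
  have hm : (maximalIdeal A).map φ = maximalIdeal B := IsLocalRing.eq_maximalIdeal hmax
  have hmA : (maximalIdeal A).map α = maximalIdeal A' :=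
    IsLocalRing.map_maximalIdeal_of_surjective α hα
  intro b hb
  rw [RingHom.mem_ker] at hb
  set J := (RingHom.ker α).map φ with hJ
  -- `b ∈ J ⊔ m^n` for all `n`
  have key : ∀ n : ℕ, b ∈ J ⊔ (maximalIdeal B) ^ n := by
    intro n
    obtain ⟨a, ha⟩ := hsurj n b
    have h1 : β (φ a - b) ∈ (((maximalIdeal A).map φ) ^ n).map β := Ideal.mem_map_of_mem β ha
    rw [Ideal.map_pow, Ideal.map_map, hcomm, ← Ideal.map_map, hmA, map_sub, hb, sub_zero] at h1
    have h2 : β (φ a) = φ' (α a) := congrArg (fun f => f a) hcomm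
    rw [h2] at h1
    have h3 := hinj n (α a) h1
    rw [← hmA, ← Ideal.map_pow] at h3
    obtain ⟨m, hm', hma⟩ := (Ideal.mem_map_iff_of_surjective α hα).1 h3
    have h4 : a - m ∈ RingHom.ker α := by rw [RingHom.mem_ker, map_sub, hma, sub_self]
    have h5 : b = φ (a - m) + (φ m - (φ a - b)) := by rw [map_sub]; ring
    rw [h5]
    refine Ideal.add_mem _ ((le_sup_left : J ≤ _) (Ideal.mem_map_of_mem φ h4))
      ((le_sup_right : (maximalIdeal B) ^ n ≤ _) ?_)
    rw [← hm]
    refine Ideal.sub_mem _ ?_ ha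
    rw [← Ideal.map_pow]
    exact Ideal.mem_map_of_mem φ hm'
  -- Krull
  have hbot := Ideal.iInf_pow_smul_eq_bot_of_isLocalRing (M := B ⧸ J) (maximalIdeal B)
    (Ideal.IsPrime.ne_top inferInstance)
  have hmk : (Ideal.Quotient.mk J b : B ⧸ J) ∈
      (⨅ i : ℕ, (maximalIdeal B) ^ i • (⊤ : Submodule B (B ⧸ J))) := by
    rw [Submodule.mem_iInf]
    intro n
    obtain ⟨j, hj, m, hm', e⟩ := Submodule.mem_sup.1 (key n)
    have h6 : (Ideal.Quotient.mk J b : B ⧸ J) = m • (1 : B ⧸ J) := by
      rw [← e, map_add, Ideal.Quotient.eq_zero_iff_mem.2 hj, zero_add, Algebra.smul_def, mul_one]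
      rfl
    rw [h6]
    exact Submodule.smul_mem_smul hm' trivial
  rw [hbot, Submodule.mem_bot] at hmk
  exact Ideal.Quotient.eq_zero_iff_mem.1 hmk

end Ker

section Tensor

variable {A A' B B' M M' : Type*} [CommRing A] [CommRing A'] [CommRing B] [CommRing B']
  [Algebra A B] [Algebra A' B'] [AddCommGroup M] [Module A M] [AddCommGroup M'] [Module A' M']
  (α : A →+* A') (β : B →+* B') (e : M →+ M')

/-- The inverse map. -/
private theorem exists_inv (hβ : Function.Surjective β) (he : Function.Bijective e)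
    (hα : Function.Surjective α)
    (hcomm : ∀ a : A, β (algebraMap A B a) = algebraMap A' B' (α a))
    (hsmul : ∀ (a : A) (m : M), e (a • m) = α a • e m)
    (hker : RingHom.ker β ≤ (RingHom.ker α).map (algebraMap A B)) :
    ∃ S : B' ⊗[A'] M' →+ B ⊗[A] M, ∀ (b : B) (m : M), S (β b ⊗ₜ[A'] e m) = b ⊗ₜ[A] m := by
  -- the kernel of `β` kills `M`
  have h0 : ∀ (b : B), β b = 0 → ∀ m : M, b ⊗ₜ[A] m = 0 := by
    intro b hb m
    have hb' : b ∈ (RingHom.ker α).map (algebraMap A B) := hker (RingHom.mem_ker.2 hb)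
    refine Submodule.span_induction (p := fun b _ => b ⊗ₜ[A] m = 0) ?_ ?_ ?_ ?_ hb'
    · rintro _ ⟨a, ha, rfl⟩
      have h1 : a • m = 0 := by
        apply he.1
        rw [hsmul, map_zero]
        have : α a = 0 := ha
        rw [this, zero_smul]
      rw [Algebra.algebraMap_eq_smul_one, TensorProduct.smul_tmul, h1, TensorProduct.tmul_zero]
    · exact TensorProduct.zero_tmul _ _
    · intro x y _ _ hx hy
      rw [TensorProduct.add_tmul, hx, hy, add_zero]
    · intro c x _ hx
      have : (c • x) ⊗ₜ[A] m = c • (x ⊗ₜ[A] m) := rfl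
      rw [this, hx, smul_zero]
  obtain ⟨g, hg⟩ := hβ.hasRightInverse
  obtain ⟨r, hr⟩ := he.2.hasRightInverse
  have hr' : ∀ m, r (e m) = m := fun m => he.1 (hr (e m))
  have hg0 : ∀ (b c : B) (m : M), β b = β c → b ⊗ₜ[A] m = c ⊗ₜ[A] m := by
    intro b c m h
    have := h0 (b - c) (by rw [map_sub, h, sub_self]) m
    rwa [TensorProduct.sub_tmul, sub_eq_zero] at this
  have hradd : ∀ x y, r (x + y) = r x + r y := fun x y => he.1 (by rw [hr, map_add, hr, hr])
  have hrzero : r 0 = 0 := he.1 (by rw [hr, map_zero])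
  have hrsmul : ∀ (a : A) x, r (α a • x) = a • r x := fun a x => he.1 (by rw [hr, hsmul, hr])
  let f : B' →+ M' →+ B ⊗[A] M :=
    { toFun := fun b' =>
        { toFun := fun m' => g b' ⊗ₜ[A] r m'
          map_zero' := by rw [hrzero, TensorProduct.tmul_zero]
          map_add' := fun x y => by rw [hradd, TensorProduct.tmul_add] }
      map_zero' := by
        ext m'
        exact h0 _ (hg 0) _
      map_add' := fun x y => by
        ext m'
        change g (x + y) ⊗ₜ[A] r m' = g x ⊗ₜ[A] r m' + g y ⊗ₜ[A] r m'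
        rw [← TensorProduct.add_tmul]
        exact hg0 _ _ _ (by rw [hg, map_add, hg, hg]) }
  have hf : ∀ (a' : A') (b' : B') (m' : M'), f (a' • b') m' = f b' (a' • m') := by
    intro a' b' m'
    obtain ⟨a, rfl⟩ := hα a'
    change g (α a • b') ⊗ₜ[A] r m' = g b' ⊗ₜ[A] r (α a • m')
    rw [hrsmul, ← TensorProduct.smul_tmul]
    refine hg0 _ _ _ ?_
    rw [hg, Algebra.smul_def, Algebra.smul_def, map_mul, hg, hcomm]
  refine ⟨TensorProduct.liftAddHom f hf, fun b m => ?_⟩
  rw [TensorProduct.liftAddHom_tmul]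
  change g (β b) ⊗ₜ[A] r (e m) = b ⊗ₜ[A] m
  rw [hr']
  exact hg0 _ _ _ (hg (β b))

/-- `B ⊗_A M → B' ⊗_{A'} M'` is bijective. -/
theorem bijective_of_tmul (hβ : Function.Surjective β) (he : Function.Bijective e)
    (hα : Function.Surjective α)
    (hcomm : ∀ a : A, β (algebraMap A B a) = algebraMap A' B' (α a))
    (hsmul : ∀ (a : A) (m : M), e (a • m) = α a • e m)
    (hker : RingHom.ker β ≤ (RingHom.ker α).map (algebraMap A B))
    (T : B ⊗[A] M →+ B' ⊗[A'] M') (hT : ∀ (b : B) (m : M), T (b ⊗ₜ[A] m) = β b ⊗ₜ[A'] e m) :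
    Function.Bijective T := by
  obtain ⟨S, hS⟩ := exists_inv α β e hβ he hα hcomm hsmul hker
  constructor
  · refine Function.LeftInverse.injective (g := S) fun t => ?_
    induction t using TensorProduct.induction_on with
    | zero => rw [map_zero, map_zero]
    | tmul b m => rw [hT, hS]
    | add x y hx hy => rw [map_add, map_add, hx, hy]
  · intro t
    induction t using TensorProduct.induction_on with
    | zero => exact ⟨0, map_zero _⟩
    | tmul b' m' =>
      obtain ⟨b, rfl⟩ := hβ b'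
      obtain ⟨m, rfl⟩ := he.2 m'
      exact ⟨b ⊗ₜ m, hT b m⟩
    | add x y hx hy =>
      obtain ⟨a, rfl⟩ := hx
      obtain ⟨b, rfl⟩ := hy
      exact ⟨a + b, map_add _ _ _⟩

/-- Version with target and source only isomorphic to the tensor products. -/
theorem bijective_of_equiv {P P' : Type*} [AddCommGroup P] [AddCommGroup P']
    (E : B ⊗[A] M ≃+ P) (E' : B' ⊗[A'] M' ≃+ P')
    (hβ : Function.Surjective β) (he : Function.Bijective e)
    (hα : Function.Surjective α)
    (hcomm : ∀ a : A, β (algebraMap A B a) = algebraMap A' B' (α a))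
    (hsmul : ∀ (a : A) (m : M), e (a • m) = α a • e m)
    (hker : RingHom.ker β ≤ (RingHom.ker α).map (algebraMap A B))
    (T : P →+ P') (hT : ∀ (b : B) (m : M), T (E (b ⊗ₜ[A] m)) = E' (β b ⊗ₜ[A'] e m)) :
    Function.Bijective T := by
  have h := bijective_of_tmul α β e hβ he hα hcomm hsmul hker
    ((E'.symm : P' →+ B' ⊗[A'] M').comp (T.comp (E : B ⊗[A] M →+ P)))
    (fun b m => by
      change E'.symm (T (E (b ⊗ₜ[A] m))) = _
      rw [hT, E'.symm_apply_apply])
  have h2 : Function.Bijective (E' ∘ (E'.symm ∘ (T ∘ E)) ∘ E.symm) :=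
    E'.bijective.comp (Function.Bijective.comp h E.symm.bijective)
  convert h2 using 1
  funext p
  simp

end Tensor

end Groth.Agent.Gaga.H277.ClosedAlg
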