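import Groth.Agent.Gaga.H974.RSky
import Mathlib.Topology.Sheaves.Functors

/-!
# Stalks of direct images along embeddings

For `f : T ⟶ S`, an abelian presheaf `F` on `T` and `f x = y` the map
`pushStk : (f_* F)_y → F_x` is bijective if `f` is inducing; the stalk of the direct image of a sheaf
at a point outside the closure of the image is zero.
-/

set_option autoImplicit false
set_option linter.unusedVariables false
universe u
open CategoryTheory TopologicalSpace Opposite Topology

noncomputable section

namespace Groth.Agent.Gaga.H277.PushStk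

open Groth.Agent.Gaga.H974.RSky

variable {T S : TopCat.{u}} (f : T ⟶ S) (F : TopCat.Presheaf Ab.{u} T)

/-- The direct image of an abelian presheaf. -/
abbrev pushP : TopCat.Presheaf Ab.{u} S := (Opens.map f).op ⋙ F

variable {x : T} {y : S} (hy : f x = y)

include hy in
theorem mem_map {U : Opens S} (hU : y ∈ U) : x ∈ (Opens.map f).obj U := by
  change f x ∈ U
  rw [hy]
  exact hU

/-- The map `(f_* F)_y → F_x`. -/
def pushStk : (pushP f F).stalk y →+ F.stalk x :=
  stalkDesc (pushP f F) y (F.stalk x)
    (fun U hU => (F.germ ((Opens.map f).obj U) x (mem_map f hy hU)).hom)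
    (fun U V i hU s =>
      TopCat.Presheaf.germ_res_apply F ((Opens.map f).map i) x (mem_map f hy hU) s)

theorem pushStk_germ (U : Opens S) (hU : y ∈ U) (s : F.obj (op ((Opens.map f).obj U))) :
    pushStk f F hy ((pushP f F).germ U y hU s) =
      F.germ ((Opens.map f).obj U) x (mem_map f hy hU) s :=
  stalkDesc_germ (pushP f F) y (F.stalk x)
    (fun U hU => (F.germ ((Opens.map f).obj U) x (mem_map f hy hU)).hom)
    (fun U V i hU s =>
      TopCat.Presheaf.germ_res_apply F ((Opens.map f).map i) x (mem_map f hy hU) s) U hU s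

theorem pushStk_bijective (hf : IsInducing f) : Function.Bijective (pushStk f F hy) := by
  constructor
  · rw [injective_iff_map_eq_zero]
    intro t ht
    obtain ⟨U, hU, s, rfl⟩ := TopCat.Presheaf.exists_germ_eq (pushP f F) t
    rw [pushStk_germ] at ht
    have ht' : F.germ ((Opens.map f).obj U) x (mem_map f hy hU) s =
        F.germ ((Opens.map f).obj U) x (mem_map f hy hU) 0 := by rw [ht, map_zero]
    obtain ⟨V, hxV, i, i', e⟩ := F.germ_eq x (mem_map f hy hU) (mem_map f hy hU) s 0 ht'
    obtain ⟨W, hW, hWV⟩ := hf.isOpen_iff.1 V.isOpen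
    let W' : Opens S := ⟨W, hW⟩ ⊓ U
    have hW' : y ∈ W' := ⟨by rw [← hy]; exact (hWV ▸ hxV : x ∈ f ⁻¹' W), hU⟩
    let j : W' ⟶ U := homOfLE inf_le_right
    have hle : (Opens.map f).obj W' ≤ V := fun z hz => by
      have : z ∈ f ⁻¹' W := hz.1
      rw [hWV] at this
      exact this
    have e2 : (pushP f F).map j.op s = 0 := by
      have h1 : F.map ((Opens.map f).map j).op s =
          F.map (homOfLE hle).op (F.map i.op s) := by
        rw [← ConcreteCategory.comp_apply, ← F.map_comp]
        rfl
      refine h1.trans ?_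
      rw [e, map_zero, map_zero]
    rw [← TopCat.Presheaf.germ_res_apply (pushP f F) j y hW' s, e2, map_zero]
  · intro t
    obtain ⟨V, hxV, s, rfl⟩ := TopCat.Presheaf.exists_germ_eq F t
    obtain ⟨W, hW, hWV⟩ := hf.isOpen_iff.1 V.isOpen
    let W' : Opens S := ⟨W, hW⟩
    have hV : V = (Opens.map f).obj W' := by
      ext z
      change z ∈ (V : Set T) ↔ z ∈ f ⁻¹' W
      rw [hWV]
    have hW' : y ∈ W' := by
      change y ∈ W
      rw [← hy]
      exact (hWV ▸ hxV : x ∈ f ⁻¹' W)
    clear_value W'
    subst hV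
    exact ⟨(pushP f F).germ W' y hW' s, pushStk_germ f F hy W' hW' s⟩

/-- Sections of an abelian sheaf over the empty set. -/
theorem eq_of_isSheaf_of_empty (hF : F.IsSheaf) (V : Opens T) (hV : ∀ z : T, z ∉ V)
    (s t : F.obj (op V)) : s = t := by
  have h := TopCat.Presheaf.IsSheaf.section_ext hF (U := op V) (s := s) (t := t)
    (fun z hz => absurd hz (hV z))
  exact h

/-- The stalk of the direct image of a sheaf at a point outside the closure of the image. -/
theorem subsingleton_stalk (hF : F.IsSheaf) (y : S) (W : Opens S) (hW : y ∈ W)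
    (hWf : ∀ z : T, f z ∉ W) : Subsingleton ((pushP f F).stalk y) := by
  refine subsingleton_of_forall_eq 0 fun t => ?_
  obtain ⟨U, hU, s, rfl⟩ := TopCat.Presheaf.exists_germ_eq (pushP f F) t
  let j : U ⊓ W ⟶ U := homOfLE inf_le_left
  rw [← TopCat.Presheaf.germ_res_apply (pushP f F) j y ⟨hU, hW⟩ s]
  have : (pushP f F).map j.op s = 0 :=
    eq_of_isSheaf_of_empty F hF ((Opens.map f).obj (U ⊓ W)) (fun z hz => hWf z hz.2) _ _
  rw [this, map_zero]

end Groth.Agent.Gaga.H277.PushStk
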