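import Groth.Agent.Gaga.H277.ClosedRing
import Groth.Agent.Gaga.H277.PushStk
import Groth.Agent.Gaga.H277.AnUnit
import Groth.Agent.Gaga.H974.AnStalk
import Groth.Agent.An.H871.Imm

/-!
# Closed immersions: `(i_* M)^an = i^an_* M^an`

`i : Z → X` a closed immersion over `ℂ`, `Z` and `X` locally of finite type and reduced:
* `anPushStk`: `(i^an_* N)_{i z} ≃ N_z`, `subsingleton_anStk_push`: `(i^an_* N)_x = 0` off the image;
* `isIso_anBaseChange`: the base change map `(i_* M)^an → i^an_* M^an` is an isomorphism for every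
  sheaf of modules `M`.
-/

set_option autoImplicit false
set_option linter.style.haveILetI false
set_option linter.unusedSectionVars false
open CategoryTheory AlgebraicGeometry Topology TopologicalSpace Opposite TensorProduct

noncomputable section

namespace Groth.Agent.Gaga.H277.ClosedMod

open Groth.Agent.Gaga.H974.RSky Groth.Agent.Gaga.H974.AnStalk
open Groth.Agent.Gaga.H988.StalkSquare Groth.Agent.Gaga.H277.AnUnit
open Groth.Agent.Gaga.H277.PushStk

variable {Z X : Scheme.{0}} [Z.Over An.SC] [X.Over An.SC] (f : Z ⟶ X) [f.IsOver An.SC]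

/-- `(f^an_* N)_{f z} → N_z`. -/
def anPushStk (N : An.AnMod Z) (z : An.Pts Z) :
    anStk ((An.anPushMap f).obj N) (An.Pts.map f z) →+ anStk N z :=
  pushStk (An.topMap f) (anPsh N) (x := z) (y := An.Pts.map f z) rfl

theorem anPushStk_germ (N : An.AnMod Z) (z : An.Pts Z) (V : Opens (An.top X))
    (hV : An.Pts.map f z ∈ V) (s : (anPsh N).obj (op ((An.mapF f).obj V))) :
    anPushStk f N z ((anPsh ((An.anPushMap f).obj N)).germ V (An.Pts.map f z) hV s) =
      (anPsh N).germ ((An.mapF f).obj V) z hV s :=
  pushStk_germ (An.topMap f) (anPsh N) (x := z) (y := An.Pts.map f z) rfl V hV s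

theorem anPushStk_bijective (hf : IsInducing (An.Pts.map f)) (N : An.AnMod Z) (z : An.Pts Z) :
    Function.Bijective (anPushStk f N z) :=
  pushStk_bijective (An.topMap f) (anPsh N) (x := z) (y := An.Pts.map f z) rfl hf

theorem anStalk_germ (z : An.Pts Z) (V : Opens (An.top X)) (hV : An.Pts.map f z ∈ V)
    (r : (An.holPresheaf X).obj (op V)) :
    anStalk f z ((An.anSpace X).presheaf.germ V (An.Pts.map f z) hV r) =
      (An.anSpace Z).presheaf.germ ((An.mapF f).obj V) z hV ((An.anMap f).c.app (op V) r) :=
  PresheafedSpace.stalkMap_germ_apply (An.anMap f) V z hV r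

theorem anPushStk_smul (N : An.AnMod Z) (z : An.Pts Z)
    (r : (An.anSpace X).presheaf.stalk (An.Pts.map f z))
    (t : anStk ((An.anPushMap f).obj N) (An.Pts.map f z)) :
    anPushStk f N z (r • t) = anStalk f z r • anPushStk f N z t := by
  obtain ⟨V, hV, r, s, rfl, rfl⟩ := exists_common (A := An.hol X)
    ((An.anPushMap f).obj N).val (An.Pts.map f z) r t
  have h1 := pre_germ_smul (A := An.hol X) ((An.anPushMap f).obj N).val (An.Pts.map f z) V hV r s
  refine (congrArg (anPushStk f N z) h1.symm).trans ?_
  refine (anPushStk_germ f N z V hV _).trans ?_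
  refine (pre_germ_smul (A := An.hol Z) N.val z ((An.mapF f).obj V) hV
    ((An.anMap f).c.app (op V) r) s).trans ?_
  exact congrArg₂ (fun a b => a • b) (anStalk_germ f z V hV r).symm
    (anPushStk_germ f N z V hV s).symm

/-- `(f_* M)_{f z} → M_z`. -/
def schPushStk (M : Z.Modules) (z : An.Pts Z) :
    schStk ((An.pushMod f).obj M) (An.Pts.map f z) →+ schStk M z :=
  pushStk f.base M.presheaf (x := z.pt) (y := (An.Pts.map f z).pt) (An.Pts.pt_map f z).symm

theorem mem_preim {z : An.Pts Z} {U : X.Opens} (hU : (An.Pts.map f z).pt ∈ U) : z.pt ∈ f ⁻¹ᵁ U := by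
  rw [An.Pts.pt_map] at hU
  exact hU

theorem schPushStk_germ (M : Z.Modules) (z : An.Pts Z) (U : X.Opens)
    (hU : (An.Pts.map f z).pt ∈ U) (s : Γ(M, f ⁻¹ᵁ U)) :
    schPushStk f M z (Scheme.Modules.presheaf ((An.pushMod f).obj M) |>.germ U
      (An.Pts.map f z).pt hU s) = M.presheaf.germ (f ⁻¹ᵁ U) z.pt (mem_preim f hU) s :=
  pushStk_germ f.base M.presheaf (x := z.pt) (y := (An.Pts.map f z).pt)
    (An.Pts.pt_map f z).symm U hU s

theorem schPushStk_bijective (hf : IsInducing f) (M : Z.Modules) (z : An.Pts Z) :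
    Function.Bijective (schPushStk f M z) :=
  pushStk_bijective f.base M.presheaf (x := z.pt) (y := (An.Pts.map f z).pt)
    (An.Pts.pt_map f z).symm hf

theorem algStalk_germ (z : An.Pts Z) (U : X.Opens) (hU : (An.Pts.map f z).pt ∈ U) (r : Γ(X, U)) :
    algStalk f z (X.presheaf.germ U (An.Pts.map f z).pt hU r) =
      Z.presheaf.germ (f ⁻¹ᵁ U) z.pt (mem_preim f hU) (f.app U r) := by
  have hU' : f z.pt ∈ U := mem_preim f hU
  have e4 := f.germ_stalkMap U z.pt hU'
  have e5 := X.presheaf.germ_stalkSpecializes (U := U) hU' (specializes_of_eq (An.Pts.pt_map f z).symm)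
  have e6 : X.presheaf.germ U (An.Pts.map f z).pt hU ≫
        (X.presheaf.stalkSpecializes (specializes_of_eq (An.Pts.pt_map f z).symm) ≫
          f.stalkMap z.pt) = f.app U ≫ Z.presheaf.germ (f ⁻¹ᵁ U) z.pt hU' := by
      rw [← Category.assoc, ← e4]
      congr 1
  exact ConcreteCategory.congr_hom e6 r

theorem schPushStk_smul (M : Z.Modules) (z : An.Pts Z)
    (r : X.presheaf.stalk (An.Pts.map f z).pt)
    (t : schStk ((An.pushMod f).obj M) (An.Pts.map f z)) :
    schPushStk f M z (r • t) = algStalk f z r • schPushStk f M z t := by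
  obtain ⟨U, hU, r, s, rfl, rfl⟩ := exists_common (A := X.sheaf)
    ((An.pushMod f).obj M).val (An.Pts.map f z).pt r t
  have h1 := pre_germ_smul (A := X.sheaf) ((An.pushMod f).obj M).val (An.Pts.map f z).pt U hU r s
  refine (congrArg (schPushStk f M z) h1.symm).trans ?_
  refine (schPushStk_germ f M z U hU _).trans ?_
  refine (pre_germ_smul (A := Z.sheaf) M.val z.pt (f ⁻¹ᵁ U) (mem_preim f hU)
    (f.app U r) s).trans ?_
  exact congrArg₂ (fun a b => a • b) (algStalk_germ f z U hU r).symm
    (schPushStk_germ f M z U hU s).symm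

/-- The base change map on canonical elements of the stalks. -/
theorem anPushStk_baseChange_can (M : Z.Modules) (z : An.Pts Z)
    (t : schStk ((An.pushMod f).obj M) (An.Pts.map f z)) :
    anPushStk f ((An.analytify Z).obj M) z
      (anStkMap (An.anBaseChange f M) (An.Pts.map f z)
        (can ((An.pushMod f).obj M) (An.Pts.map f z) t)) = can M z (schPushStk f M z t) := by
  obtain ⟨U, hU, s, rfl⟩ := TopCat.Presheaf.exists_germ_eq
    (Scheme.Modules.presheaf ((An.pushMod f).obj M)) t
  refine (congrArg (fun a => anPushStk f ((An.analytify Z).obj M) z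
    (anStkMap (An.anBaseChange f M) (An.Pts.map f z) a))
      (can_germ ((An.pushMod f).obj M) (An.Pts.map f z) U hU s)).trans ?_
  refine (congrArg (anPushStk f ((An.analytify Z).obj M) z)
    (anStkMap_germ (An.anBaseChange f M) (An.Pts.map f z) (opn U) hU
      (anSec (M := (An.pushMod f).obj M) s))).trans ?_
  refine (congrArg (fun a => anPushStk f ((An.analytify Z).obj M) z
    ((anPsh ((An.anPushMap f).obj ((An.analytify Z).obj M))).germ (opn U) (An.Pts.map f z) hU a))
      (anBaseChange_an f M U s)).trans ?_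
  refine (anPushStk_germ f ((An.analytify Z).obj M) z (opn U) hU _).trans ?_
  refine Eq.trans ?_ (congrArg (can M z) (schPushStk_germ f M z U hU s).symm)
  exact (can_germ M z (f ⁻¹ᵁ U) (mem_preim f hU) s).symm

theorem isSheaf_anPsh (N : An.AnMod Z) : (anPsh N).IsSheaf := N.isSheaf

theorem isSheaf_presheaf (M : Z.Modules) : M.presheaf.IsSheaf := M.isSheaf

/-- The stalks of `f^an_* N` off the closed image. -/
theorem subsingleton_anStk_push [IsClosedImmersion f] (N : An.AnMod Z) (x : An.Pts X)
    (hx : x ∉ Set.range (An.Pts.map f)) : Subsingleton (anStk ((An.anPushMap f).obj N) x) := by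
  have hc := (Groth.Agent.An.H871.Imm.isClosedEmbedding_map f).isClosed_range
  exact subsingleton_stalk (An.topMap f) (anPsh N) (isSheaf_anPsh N) x
    ⟨(Set.range (An.Pts.map f))ᶜ, hc.isOpen_compl⟩ hx (fun z hz => hz ⟨z, rfl⟩)

theorem subsingleton_schStk_push [IsClosedImmersion f] (M : Z.Modules) (x : An.Pts X)
    (hx : x ∉ Set.range (An.Pts.map f)) : Subsingleton (schStk ((An.pushMod f).obj M) x) := by
  have hx' : x.pt ∉ Set.range f := by
    intro h
    apply hx
    rw [Groth.Agent.An.H871.Imm.range_map_of_isClosedImmersion f]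
    exact h
  have hc : IsClosed (Set.range f) := f.isClosedEmbedding.isClosed_range
  exact subsingleton_stalk f.base M.presheaf (isSheaf_presheaf M) x.pt
    ⟨(Set.range f)ᶜ, hc.isOpen_compl⟩ hx' (fun z hz => hz ⟨z, rfl⟩)

theorem subsingleton_anStk_analytify (M : X.Modules) (x : An.Pts X)
    [Subsingleton (schStk M x)] : Subsingleton (anStk ((An.analytify X).obj M) x) := by
  letI := anAlg x
  refine subsingleton_of_forall_eq 0 fun t => ?_
  obtain ⟨t, rfl⟩ := (equiv M x).surjective t
  have : t = 0 := by
    induction t using TensorProduct.induction_on with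
    | zero => rfl
    | tmul b m => rw [Subsingleton.elim m 0, TensorProduct.tmul_zero]
    | add x y hx hy => rw [hx, hy, add_zero]
  rw [this, map_zero]

/-- **Base change for closed immersions.** -/
theorem isIso_anBaseChange [LocallyOfFiniteType (X ↘ An.SC)] [LocallyOfFiniteType (Z ↘ An.SC)]
    [IsReduced X] [IsReduced Z] [IsClosedImmersion f] (M : Z.Modules) :
    IsIso (An.anBaseChange f M) := by
  rw [an_isIso_iff]
  intro x
  by_cases hx : x ∈ Set.range (An.Pts.map f)
  · obtain ⟨z, rfl⟩ := hx
    letI := anAlg z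
    letI := anAlg (An.Pts.map f z)
    have hb := anPushStk_bijective f
      (Groth.Agent.An.H871.Imm.isClosedEmbedding_map f).isInducing ((An.analytify Z).obj M) z
    have key := ClosedAlg.bijective_of_equiv (algStalk f z) (anStalk f z)
      (schPushStk f M z)
      (equiv ((An.pushMod f).obj M) (An.Pts.map f z)).toAddEquiv (equiv M z).toAddEquiv
      (ClosedRing.anStalk_surjective f z)
      (schPushStk_bijective f f.isClosedEmbedding.isInducing M z)
      (ClosedRing.algStalk_surjective f z)
      (fun a => congrArg (fun g => g a) (stalk_square f z))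
      (schPushStk_smul f M z)
      (ClosedRing.ker_anStalk f z)
      ((anPushStk f ((An.analytify Z).obj M) z).comp
        (anStkMap (An.anBaseChange f M) (An.Pts.map f z)).toAddMonoidHom)
      (fun b m => by
        change anPushStk f ((An.analytify Z).obj M) z
          (anStkMap (An.anBaseChange f M) (An.Pts.map f z)
            (equiv ((An.pushMod f).obj M) (An.Pts.map f z) (b ⊗ₜ m))) = equiv M z (_ ⊗ₜ _)
        rw [equiv_tmul, equiv_tmul, _root_.map_smul, anPushStk_smul, anPushStk_baseChange_can])
    exact (Function.Bijective.of_comp_iff' hb _).1 key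
  · have h1 := subsingleton_anStk_push f ((An.analytify Z).obj M) x hx
    have h2 := subsingleton_schStk_push f M x hx
    have h3 := subsingleton_anStk_analytify ((An.pushMod f).obj M) x
    exact ⟨fun a b _ => Subsingleton.elim a b, fun b => ⟨0, Subsingleton.elim _ b⟩⟩

end Groth.Agent.Gaga.H277.ClosedMod
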