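import Groth.Agent.Gaga.H145.Surj
import Groth.Agent.Gaga.H986.NoethStk
import Groth.Agent.Gaga.H988.StalkSquare
import Groth.Agent.Gaga.H277.ClosedAlg
import Groth.Agent.S4314

/-!
# Closed immersions: holomorphic germs

`i : Z → X` a closed immersion over `ℂ`, `Z` and `X` locally of finite type and reduced:
* `anStalk_surjective`: `hol_{X, i z} → hol_{Z, z}` is surjective (no reducedness needed);
* `algStalk_surjective`: `O_{X, i z} → O_{Z, z}` is surjective;
* `ker_anStalk`: the kernel of the first map is generated by the kernel of the second.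
-/

set_option autoImplicit false
open CategoryTheory AlgebraicGeometry Topology TopologicalSpace Opposite Filter
open Groth.Agent.An.H863.PtsBasic Groth.Agent.An.H863.PtsCont
open Groth.Agent.Gaga.H990.ChartAt Groth.Agent.Gaga.H990.Stalk

noncomputable section

namespace Groth.Agent.Gaga.H277.ClosedRing

open Groth.Agent.Gaga.H988.StalkSquare Groth.Agent.Gaga.H145.Surj

variable {Z X : Scheme.{0}} [Z.Over An.SC] [X.Over An.SC]

lemma evAt_map (f : Z ⟶ X) [f.IsOver An.SC] (z : An.Pts Z) (W : X.Opens)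
    (hz : (An.Pts.map f z).pt ∈ W) (t : Γ(X, W)) :
    evAt z (f ⁻¹ᵁ W) (f.app W t) = evAt (An.Pts.map f z) W t := by
  have hz' : z.pt ∈ f ⁻¹ᵁ W := by rw [An.Pts.pt_map] at hz; exact hz
  rw [evAt_of_mem hz, evAt_of_mem hz', An.Pts.ev_map]

lemma app_strU (f : Z ⟶ X) [f.IsOver An.SC] (W : X.Opens) (c : ℂ) :
    f.app W (strU W c) = strU (f ⁻¹ᵁ W) c := by
  unfold strU
  simp only [RingHom.comp_apply]
  have h1 : f.app W (X.presheaf.map (homOfLE (le_top : W ≤ ⊤)).op (An.strHom X c)) =
      Z.presheaf.map (homOfLE (le_top : f ⁻¹ᵁ W ≤ ⊤)).op (f.appTop (An.strHom X c)) := by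
    have := f.naturality (homOfLE (le_top : W ≤ ⊤)).op
    exact ConcreteCategory.congr_hom this (An.strHom X c)
  refine h1.trans ?_
  congr 1
  have h2 : (Z ↘ An.SC) = f ≫ (X ↘ An.SC) := (comp_over f An.SC).symm
  unfold An.strHom
  simp only [RingHom.comp_apply, h2, Scheme.Hom.comp_appTop]
  rfl

/-- `hol_{X, i z} → hol_{Z, z}` is surjective. -/
theorem anStalk_surjective [LocallyOfFiniteType (X ↘ An.SC)] (i : Z ⟶ X) [i.IsOver An.SC]
    [IsClosedImmersion i] (z : An.Pts Z) : Function.Surjective (anStalk i z) := by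
  intro b
  obtain ⟨U, hU, hx, n, s, hs⟩ := exists_gens (An.Pts.map i z)
  have hz : z.pt ∈ i ⁻¹ᵁ U := by rw [An.Pts.pt_map] at hx; exact hx
  have hU' : IsAffineOpen (i ⁻¹ᵁ U) := hU.preimage i
  have hsurj : Function.Surjective (i.app U) := i.app_surjective U hU
  have hs' : Function.Surjective
      (MvPolynomial.eval₂Hom (strU (i ⁻¹ᵁ U)) (fun j => i.app U (s j))) := by
    have : MvPolynomial.eval₂Hom (strU (i ⁻¹ᵁ U)) (fun j => i.app U (s j)) =
        ((i.app U).hom).comp (MvPolynomial.eval₂Hom (strU U) s) := by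
      refine MvPolynomial.ringHom_ext (fun c => ?_) (fun j => ?_)
      · simp only [MvPolynomial.coe_eval₂Hom, MvPolynomial.eval₂_C, RingHom.comp_apply]
        exact (app_strU i U c).symm
      · simp only [MvPolynomial.coe_eval₂Hom, MvPolynomial.eval₂_X, RingHom.comp_apply]
    rw [this]
    exact hsurj.comp hs
  have hvals : ∀ w : An.Pts Z, (An.Pts.map i w).pt ∈ U →
      vals (i ⁻¹ᵁ U) (fun j => i.app U (s j)) w = vals U s (An.Pts.map i w) := fun w hw =>
    funext fun j => evAt_map i w U hw (s j)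
  obtain ⟨φ, hφ, hb⟩ := exists_chartAt_of_stk b
  obtain ⟨G, hG, he⟩ := exists_fun_of_chartAt hU' _ hs' hz hφ
  rw [hvals z hx] at hG
  obtain ⟨c, hc⟩ := exists_stk_of_chartAt (chartAt_comp_vals s hx hG)
  refine ⟨c, toGerm_injective z ?_⟩
  refine (toGerm_stalkMap i z c _ hc).trans ?_
  rw [hb]
  refine Germ.coe_eq.2 ?_
  have hcont : ContinuousAt (An.Pts.map i) z := (An.Pts.continuous_map i).continuousAt
  filter_upwards [he, hcont.eventually ((An.Pts.isOpen_preimage_pt U).mem_nhds hx)] with w h1 h2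
  rw [h1, hvals w h2]

/-- `O_{X, i z} → O_{Z, z}` is surjective. -/
theorem algStalk_surjective (i : Z ⟶ X) [i.IsOver An.SC]
    [IsClosedImmersion i] (z : An.Pts Z) : Function.Surjective (algStalk i z) := by
  intro b
  obtain ⟨a, ha⟩ := i.stalkMap_surjective z.pt b
  obtain ⟨a', ha'⟩ := (ConcreteCategory.bijective_of_isIso (X.presheaf.stalkSpecializes
    (specializes_of_eq (An.Pts.pt_map i z).symm))).2 a
  refine ⟨a', ?_⟩
  change i.stalkMap z.pt (X.presheaf.stalkSpecializes
    (specializes_of_eq (An.Pts.pt_map i z).symm) a') = b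
  rw [ha', ha]

/-- The kernel of `hol_{X, i z} → hol_{Z, z}` is generated by the kernel of `O_{X, i z} → O_{Z, z}`. -/
theorem ker_anStalk [LocallyOfFiniteType (X ↘ An.SC)] [LocallyOfFiniteType (Z ↘ An.SC)]
    [IsReduced X] [IsReduced Z] (i : Z ⟶ X) [i.IsOver An.SC]
    [IsClosedImmersion i] (z : An.Pts Z) :
    RingHom.ker (anStalk i z) ≤ (RingHom.ker (algStalk i z)).map (phi (An.Pts.map i z)) := by
  have h1 := Groth.Agent.S4314.result X (An.Pts.map i z)
  have h2 := Groth.Agent.S4314.result Z z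
  have : IsNoetherianRing ((An.anSpace X).presheaf.stalk (An.Pts.map i z)) :=
    Groth.Agent.Gaga.H986.NoethStk.isNoetherianRing_stk (An.Pts.map i z)
  exact ClosedAlg.ker_le (phi (An.Pts.map i z)) (phi z) (algStalk i z) (anStalk i z)
    (stalk_square i z) (algStalk_surjective i z) h1.1.1 h1.1.2 (fun n => (h1.2 n).1)
    (fun n => (h2.2 n).2)

end Groth.Agent.Gaga.H277.ClosedRing
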