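import Groth.Prelude.Def_AnHol
import Groth.Agent.An.H863.PtsCont
import Mathlib.Analysis.Calculus.FDeriv.Mul
import Mathlib.Analysis.Calculus.FDeriv.Pow
import Mathlib.Analysis.Calculus.Deriv.Inv

/-!
# Differentiability of evaluations along a family of complex points

For a map `φ : E → An.Pts X` from a complex normed space, evaluations of all sections along `φ` are
differentiable at `t₀` as soon as this holds for generators of the sections over an affine chart.
-/

set_option autoImplicit false
open CategoryTheory AlgebraicGeometry Topology TopologicalSpace Opposite Filter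
open Groth.Agent.An.H863.PtsBasic Groth.Agent.An.H863.PtsCont

noncomputable section

namespace Groth.Agent.Gaga.H277.DiffAt

variable {X : Scheme.{0}} [X.Over An.SC] {E : Type*} [NormedAddCommGroup E] [NormedSpace ℂ E]

/-- The sections over U whose evaluation along φ is differentiable at t₀ form a subring. -/
def diffSubring (φ : E → An.Pts X) (t₀ : E) (U : X.Opens)
    (hU : ∀ᶠ t in 𝓝 t₀, (φ t).pt ∈ U) : Subring Γ(X, U) where
  carrier := {f | DifferentiableAt ℂ (fun t => evAt (φ t) U f) t₀}
  mul_mem' {f g} hf hg := by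
    rw [Set.mem_ofPred]
    simp only [evAt_mul]
    exact DifferentiableAt.mul (Set.mem_ofPred.mp hf) (Set.mem_ofPred.mp hg)
  one_mem' := by
    rw [Set.mem_ofPred]
    refine DifferentiableAt.congr_of_eventuallyEq (f := fun _ => (1 : ℂ))
      (differentiableAt_const _) ?_
    filter_upwards [hU] with t ht
    rw [evAt_of_mem ht, ev_one]
  add_mem' {f g} hf hg := by
    rw [Set.mem_ofPred]
    simp only [evAt_add]
    exact DifferentiableAt.add (Set.mem_ofPred.mp hf) (Set.mem_ofPred.mp hg)
  zero_mem' := by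
    rw [Set.mem_ofPred]
    simp
  neg_mem' {f} hf := by
    rw [Set.mem_ofPred]
    simp only [evAt_neg]
    exact DifferentiableAt.neg (Set.mem_ofPred.mp hf)

lemma differentiableAt_evAt_strU (φ : E → An.Pts X) (t₀ : E)
    (U : X.Opens) (hU : ∀ᶠ t in 𝓝 t₀, (φ t).pt ∈ U) (c : ℂ) :
    DifferentiableAt ℂ (fun t => evAt (φ t) U (strU U c)) t₀ := by
  refine DifferentiableAt.congr_of_eventuallyEq (f := fun _ => c) (differentiableAt_const _) ?_
  filter_upwards [hU] with t ht
  rw [evAt_of_mem ht, ev_strU]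

/-- If evaluation of all sections over an affine chart U around φ t₀ is differentiable at t₀, then
evaluation of every section near φ t₀ is. -/
lemma differentiableAt_of_affine_all (φ : E → An.Pts X) (t₀ : E)
    (U : X.Opens) (hUa : IsAffineOpen U) (hU : ∀ᶠ t in 𝓝 t₀, (φ t).pt ∈ U)
    (hf : ∀ f : Γ(X, U), DifferentiableAt ℂ (fun t => evAt (φ t) U f) t₀)
    (W : X.Opens) (f : Γ(X, W)) (hW : (φ t₀).pt ∈ W) :
    DifferentiableAt ℂ (fun t => evAt (φ t) W f) t₀ := by
  have hU0 : (φ t₀).pt ∈ U := hU.self_of_nhds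
  obtain ⟨h, hh, hx⟩ := hUa.exists_basicOpen_le (V := W) ⟨(φ t₀).pt, hW⟩ hU0
  change (φ t₀).pt ∈ X.basicOpen h at hx
  have hev : ∀ᶠ t in 𝓝 t₀, (φ t).pt ∈ X.basicOpen h := by
    have h0 : evAt (φ t₀) U h ≠ 0 := by
      rw [evAt_of_mem hU0, ev_ne_zero_iff]; exact hx
    filter_upwards [hU, (hf h).continuousAt.eventually_ne h0] with t ht1 ht2
    rwa [evAt_of_mem ht1, ev_ne_zero_iff] at ht2
  -- f restricted to D(h) is a fraction a / h^n
  have := hUa.isLocalization_basicOpen h
  obtain ⟨n, a, ha⟩ := IsLocalization.Away.surj h (X.presheaf.map (homOfLE hh).op f)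
  have hle : X.basicOpen h ≤ U := X.basicOpen_le h
  have hres : ∀ g : Γ(X, U), algebraMap Γ(X, U) Γ(X, X.basicOpen h) g =
      X.presheaf.map (homOfLE hle).op g := fun g => rfl
  have key : ∀ t, (φ t).pt ∈ X.basicOpen h →
      evAt (φ t) W f = evAt (φ t) U a / evAt (φ t) U h ^ n := by
    intro t ht
    have htU : (φ t).pt ∈ U := hle ht
    have htW : (φ t).pt ∈ W := hh ht
    have hne : (φ t).ev U htU h ≠ 0 := by rw [ev_ne_zero_iff]; exact ht
    rw [evAt_of_mem htU, evAt_of_mem htU, evAt_of_mem htW]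
    rw [eq_div_iff (pow_ne_zero n hne)]
    have e := congrArg (fun s => (φ t).ev (X.basicOpen h) ht s) ha
    simp only [hres, ev_mul, ev_pow, ev_res] at e
    exact e
  have hne : evAt (φ t₀) U h ^ n ≠ 0 := by
    refine pow_ne_zero n ?_
    rw [evAt_of_mem hU0, ev_ne_zero_iff]; exact hx
  refine DifferentiableAt.congr_of_eventuallyEq
    (f := fun t => evAt (φ t) U a / evAt (φ t) U h ^ n) ?_ ?_
  · simp only [div_eq_mul_inv]
    exact DifferentiableAt.fun_mul (hf a) (DifferentiableAt.fun_inv ((hf h).fun_pow n) hne)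
  · filter_upwards [hev] with t ht
    exact key t ht

/-- Differentiability criterion with generators as a ℂ-algebra, in the form of a surjection from a
polynomial ring. -/
lemma differentiableAt_of_affine_gen (φ : E → An.Pts X) (t₀ : E)
    (U : X.Opens) (hUa : IsAffineOpen U) (hU : ∀ᶠ t in 𝓝 t₀, (φ t).pt ∈ U)
    {ι : Type*} (s : ι → Γ(X, U)) (hs : Function.Surjective (MvPolynomial.eval₂Hom (strU U) s))
    (hf : ∀ i, DifferentiableAt ℂ (fun t => evAt (φ t) U (s i)) t₀)
    (W : X.Opens) (f : Γ(X, W)) (hW : (φ t₀).pt ∈ W) :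
    DifferentiableAt ℂ (fun t => evAt (φ t) W f) t₀ := by
  refine differentiableAt_of_affine_all φ t₀ U hUa hU ?_ W f hW
  have hG : Subring.closure (Set.range (strU U) ∪ Set.range s) = ⊤ := by
    rw [eq_top_iff]
    intro f _
    obtain ⟨p, rfl⟩ := hs f
    induction p using MvPolynomial.induction_on with
    | C c =>
      rw [MvPolynomial.coe_eval₂Hom, MvPolynomial.eval₂_C]
      exact Subring.subset_closure (Or.inl ⟨c, rfl⟩)
    | add p q hp hq =>
      rw [map_add]
      exact Subring.add_mem _ (hp trivial) (hq trivial)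
    | mul_X p i hp =>
      rw [map_mul, MvPolynomial.coe_eval₂Hom, MvPolynomial.eval₂_X]
      exact Subring.mul_mem _ (hp trivial) (Subring.subset_closure (Or.inr ⟨i, rfl⟩))
  have : (⊤ : Subring Γ(X, U)) ≤ diffSubring φ t₀ U hU := by
    rw [← hG, Subring.closure_le]
    rintro _ (⟨c, rfl⟩ | ⟨i, rfl⟩)
    · exact differentiableAt_evAt_strU φ t₀ U hU c
    · exact hf i
  intro f
  exact this (Subring.mem_top f)

end Groth.Agent.Gaga.H277.DiffAt
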