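import Groth.Prelude.Def_AnHol
import Groth.Agent.An.H871.Imm
import Mathlib.AlgebraicGeometry.OpenImmersion

/-!
# Holomorphic functions and open immersions

For an open immersion `j : X ⟶ Y` over ℂ and an open `V ⊆ X(ℂ)` the pull back of functions
along `V ≃ j(V)` identifies holomorphic functions on `j(V)` and on `V`.
-/

set_option autoImplicit false
open CategoryTheory AlgebraicGeometry Topology TopologicalSpace Opposite

noncomputable section

namespace Groth.Agent.Gaga.H277.OpenHol

variable {X Y : Scheme.{0}} [X.Over An.SC] [Y.Over An.SC] (j : X ⟶ Y) [j.IsOver An.SC]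
  [IsOpenImmersion j]

lemma isOpenEmbedding : IsOpenEmbedding (An.topMap j) :=
  Groth.Agent.An.H871.Imm.isOpenEmbedding_map j

/-- The image functor on opens of complex points. -/
abbrev imF : Opens (An.top X) ⥤ Opens (An.top Y) := (isOpenEmbedding j).isOpenMap.functor

lemma map_mem_imF {V : Opens (An.top X)} {x : An.Pts X} (hx : x ∈ V) :
    An.Pts.map j x ∈ (imF j).obj V := ⟨x, hx, rfl⟩

lemma map_mem_imF_iff {V : Opens (An.top X)} {x : An.Pts X} :
    An.Pts.map j x ∈ (imF j).obj V ↔ x ∈ V := by
  constructor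
  · rintro ⟨x', hx', h⟩
    have : x' = x := (isOpenEmbedding j).injective h
    exact this ▸ hx'
  · exact map_mem_imF j

lemma mem_imF_iff {V : Opens (An.top X)} {y : An.Pts Y} :
    y ∈ (imF j).obj V ↔ ∃ x ∈ V, An.Pts.map j x = y := Iff.rfl

/-- The inverse of `V → j(V)`. -/
def pre {V : Opens (An.top X)} (y : (imF j).obj V) : V :=
  ⟨y.2.choose, y.2.choose_spec.1⟩

lemma map_pre {V : Opens (An.top X)} (y : (imF j).obj V) : An.Pts.map j (pre j y).1 = y.1 :=
  y.2.choose_spec.2

lemma pre_map {V : Opens (An.top X)} (x : V) : pre j ⟨An.Pts.map j x.1, map_mem_imF j x.2⟩ = x := by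
  apply Subtype.ext
  apply (isOpenEmbedding j).injective
  exact map_pre j _

/-- Functions on `V` are functions on `j(V)`. -/
def transAlg (V : Opens (An.top X)) : (V → ℂ) →ₐ[ℂ] ((imF j).obj V → ℂ) where
  toFun g y := g (pre j y)
  map_one' := rfl
  map_mul' _ _ := rfl
  map_zero' := rfl
  map_add' _ _ := rfl
  commutes' _ := rfl

lemma isChartFun_trans {V : Opens (An.top X)} {g : V → ℂ} (hg : An.IsChartFun V g) :
    An.IsChartFun ((imF j).obj V) (fun y => g (pre j y)) := by
  obtain ⟨W, hW, n, s, V', G, hV', hG, h⟩ := hg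
  have hW' : ∀ y : (imF j).obj V, An.Pts.pt y.1 ∈ j ''ᵁ W := by
    intro y
    rw [← map_pre j y, An.Pts.pt_map]
    exact ⟨_, hW (pre j y), rfl⟩
  have hev : ∀ (y : (imF j).obj V) (i : Fin n),
      An.Pts.ev y.1 (j ''ᵁ W) (hW' y) ((j.appIso W).inv (s i)) =
        An.Pts.ev (pre j y).1 W (hW (pre j y)) (s i) := by
    intro y i
    have h1 : An.Pts.ev y.1 (j ''ᵁ W) (hW' y) ((j.appIso W).inv (s i)) =
        An.Pts.ev (An.Pts.map j (pre j y).1) (j ''ᵁ W) (by rw [map_pre]; exact hW' y)
          ((j.appIso W).inv (s i)) := by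
      congr 1
      exact (map_pre j y).symm
    rw [h1, An.Pts.ev_map]
    have h2 : j.app (j ''ᵁ W) ((j.appIso W).inv (s i)) =
        X.presheaf.map (eqToHom (j.preimage_image_eq W)).op (s i) := by
      have := j.appIso_inv_app W
      exact ConcreteCategory.congr_hom this (s i)
    rw [h2]
    exact Groth.Agent.An.H871.Imm.ev_res (pre j y).1 (j.preimage_image_eq W).le _ (s i)
  refine ⟨j ''ᵁ W, hW', n, fun i => (j.appIso W).inv (s i), V', G, hV', hG, fun y => ?_⟩
  simp only [hev]
  exact h (pre j y)

lemma chartAlg_trans {V : Opens (An.top X)} {g : V → ℂ} (hg : g ∈ An.chartAlg V) :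
    (fun y => g (pre j y)) ∈ An.chartAlg ((imF j).obj V) := by
  have h1 : (An.chartAlg V).map (transAlg j V) ≤ An.chartAlg ((imF j).obj V) := by
    rw [An.chartAlg, AlgHom.map_adjoin]
    refine Algebra.adjoin_mono ?_
    rintro _ ⟨g, hg, rfl⟩
    exact isChartFun_trans j hg
  exact h1 ⟨g, hg, rfl⟩

lemma holPred_trans {V : Opens (An.top X)} {g : V → ℂ} (hg : (An.holPred X).pred g) :
    (An.holPred Y).pred (U := (imF j).obj V) (fun y => g (pre j y)) := by
  intro y
  obtain ⟨V', hV', i, h⟩ := hg (pre j y)
  refine ⟨(imF j).obj V', ?_, (imF j).map i, ?_⟩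
  · rw [← map_pre j y]
    exact map_mem_imF j hV'
  · have := chartAlg_trans j (V := V') (g := fun x => g (i x)) h
    refine cast (congrArg (fun k => k ∈ An.chartAlg ((imF j).obj V')) ?_) this
    funext y'
    congr 1
    apply Subtype.ext
    apply (isOpenEmbedding j).injective
    change An.Pts.map j (pre j y').1 = An.Pts.map j (pre j ((imF j).map i y')).1
    rw [map_pre, map_pre]
    rfl

/-- Holomorphic functions on `j(V)` are the holomorphic functions on `V`. -/
theorem holPred_iff {V : Opens (An.top X)} (g : (imF j).obj V → ℂ) :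
    (An.holPred Y).pred g ↔
      (An.holPred X).pred (U := V) (fun x => g ⟨An.Pts.map j x.1, map_mem_imF j x.2⟩) := by
  constructor
  · intro h
    have h1 := An.holPred_comp j ((imF j).obj V) g h
    have hle : V ≤ (Opens.map (An.topMap j)).obj ((imF j).obj V) := fun x hx => map_mem_imF j hx
    exact (An.holPred X).res (homOfLE hle) _ h1
  · intro h
    have h1 := holPred_trans j h
    refine cast (congrArg (fun k => (An.holPred Y).pred (U := (imF j).obj V) k) ?_) h1
    funext y
    congr 1
    exact Subtype.ext (map_pre j y)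

/-- The ring isomorphism `hol_X(V) ≅ hol_Y(j V)` (as a ring homomorphism from the left to the
right). -/
def holHom (V : Opens (An.top X)) :
    (An.holPresheaf X).obj (op V) ⟶ (An.holPresheaf Y).obj (op ((imF j).obj V)) :=
  CommRingCat.ofHom
    { toFun := fun g => ⟨fun y => g.1 (pre j y), holPred_trans j g.2⟩
      map_one' := rfl
      map_mul' := fun _ _ => rfl
      map_zero' := rfl
      map_add' := fun _ _ => rfl }

lemma holHom_apply (V : Opens (An.top X)) (g : (An.holPresheaf X).obj (op V))
    (y : (imF j).obj V) : (holHom j V g).1 y = g.1 (pre j y) := rfl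

/-- and its inverse. -/
def holInv (V : Opens (An.top X)) :
    (An.holPresheaf Y).obj (op ((imF j).obj V)) ⟶ (An.holPresheaf X).obj (op V) :=
  CommRingCat.ofHom
    { toFun := fun g => ⟨fun x => g.1 ⟨An.Pts.map j x.1, map_mem_imF j x.2⟩,
        (holPred_iff j g.1).mp g.2⟩
      map_one' := rfl
      map_mul' := fun _ _ => rfl
      map_zero' := rfl
      map_add' := fun _ _ => rfl }

lemma holInv_apply (V : Opens (An.top X)) (g : (An.holPresheaf Y).obj (op ((imF j).obj V)))
    (x : V) : (holInv j V g).1 x = g.1 ⟨An.Pts.map j x.1, map_mem_imF j x.2⟩ := rfl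

/-- `hol_X(V) ≅ hol_Y(j V)`. -/
def holIso (V : Opens (An.top X)) :
    (An.holPresheaf X).obj (op V) ≅ (An.holPresheaf Y).obj (op ((imF j).obj V)) where
  hom := holHom j V
  inv := holInv j V
  hom_inv_id := by
    ext g
    apply Subtype.ext
    funext x
    exact congrArg g.1 (pre_map j x)
  inv_hom_id := by
    ext g
    apply Subtype.ext
    funext y
    exact congrArg g.1 (Subtype.ext (map_pre j y))

/-- The isomorphism is natural. -/
def holTrans : An.holPresheaf X ⟶ (imF j).op ⋙ An.holPresheaf Y where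
  app V := holHom j (unop V)
  naturality {U V} i := by
    ext g
    apply Subtype.ext
    funext y
    refine congrArg g.1 (Subtype.ext ((isOpenEmbedding j).injective ?_))
    change An.Pts.map j (pre j y).1 = An.Pts.map j (pre j ((imF j).map i.unop y)).1
    rw [map_pre, map_pre]
    rfl

end Groth.Agent.Gaga.H277.OpenHol
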