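import Groth.Agent.Gaga.H973.AnCoc

/-!
# Analytification commutes with twisting by a cocycle
-/

set_option autoImplicit false
set_option linter.unusedVariables false

open CategoryTheory TopologicalSpace Opposite AlgebraicGeometry

noncomputable section

namespace Groth.Agent.Gaga.H277.TwAn

open Groth.Agent.Gaga.H975.ModSec Groth.Agent.Gaga.H973.Tw Groth.Agent.Gaga.H973.TwEquiv
open Groth.Agent.Gaga.H975.AnSec Groth.Agent.Gaga.H973.AnCoc

variable {X : Scheme.{0}} [X.Over An.SC] {𝒰 : Cov (spc X)}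

/-- The direct image as a functor to modules in the section-wise form. -/
abbrev psh (P : An.AnMod X) : Mod (T := spc X) X.sheaf := (An.anPush X).obj P

/-- Sections of the direct image. -/
def toP {P : An.AnMod X} {V : Opens (spc X)} (s : Sec P (pre V)) : Sec (psh P) V := s

/-- Sections of the direct image. -/
def ofP {P : An.AnMod X} {V : Opens (spc X)} (s : Sec (psh P) V) : Sec P (pre V) := s

theorem ofP_res {P : An.AnMod X} {V W : Opens (spc X)} (h : W ≤ V) (s : Sec (psh P) V) :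
    ofP (res (psh P) h s) = res P (pre_mono h) (ofP s) := rfl

theorem toP_res {P : An.AnMod X} {V W : Opens (spc X)} (h : W ≤ V) (s : Sec P (pre V)) :
    res (psh P) h (toP s) = toP (res P (pre_mono h) s) := rfl

theorem toP_smul {P : An.AnMod X} {V : Opens (spc X)} (r : O (T := spc X) X.sheaf V) (s : Sec P (pre V)) :
    r • toP s = toP ((pul le_rfl r : O (An.hol X) (pre V)) • s) := by
  have : (pul le_rfl r : O (An.hol X) (pre V)) = toHol V r := resO_self (R := An.hol X) le_rfl (toHol V r)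
  rw [this]
  rfl

theorem inv_G' (c : Coc 𝒰 X.sheaf) (i j : 𝒰.ι) {W : Opens (spc X)} (hi : W ≤ 𝒰.U i) (hj : W ≤ 𝒰.U j) :
    (anCoc c).inv.G i j (pre_mono hi) (pre_mono hj) = pul le_rfl (c.inv.G i j hi hj) := by
  rw [Coc.inv_G, Coc.inv_G]
  exact anCoc_G c j i hj hi le_rfl _ _

/-- The comparison `anPush (Tw N) ⟶ Tw (anPush N)`. -/
def cmpHom (c : Coc 𝒰 X.sheaf) (P : An.AnMod X) :
    psh (twObj (anCoc c).inv P) ⟶ twObj c.inv (psh P) :=
  mkHom c.inv (fun V t i W hV hi => toP (cmp (anCoc c).inv (ofP t) i (pre W) (pre_mono hV) (pre_mono hi)))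
    (fun V t i W W' hV hi h => by rw [toP_res, res_cmp])
    (fun V t i j W hV hi hj => by
      rw [toP_smul, ← inv_G', ← cmp_rel])
    (fun V t t' i W hV hi => by
      change toP (cmp (anCoc c).inv (ofP t + ofP t') i (pre W) _ _) = _
      rw [cmp_add]; rfl)
    (fun V r t i W hV hi => by
      change toP (cmp (anCoc c).inv ((toHol V r : O (An.hol X) (pre V)) • ofP t) i (pre W) _ _) = _
      rw [cmp_smul, toP_smul, pul_resO]
      rfl)
    (fun V V' h t i W hV hi => by
      rw [ofP_res, cmp_res])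

theorem cmp_cmpHom (c : Coc 𝒰 X.sheaf) (P : An.AnMod X) {V : Opens (spc X)}
    (t : Sec (psh (twObj (anCoc c).inv P)) V) (i : 𝒰.ι) (W : Opens (spc X)) (hV : W ≤ V) (hi : W ≤ 𝒰.U i) :
    cmp c.inv (app (cmpHom c P) V t) i W hV hi =
      toP (cmp (anCoc c).inv (ofP t) i (pre W) (pre_mono hV) (pre_mono hi)) := by
  unfold cmpHom
  rw [cmp_mkHom]

theorem isIso_cmpHom (c : Coc 𝒰 X.sheaf) (P : An.AnMod X) : IsIso (cmpHom c P) := by
  refine isIso_of 𝒰 _ fun i V hV => ⟨fun t t' h => ?_, fun s => ?_⟩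
  · have h1 := congrArg (fun s => cmp c.inv s i V le_rfl hV) h
    simp only [cmp_cmpHom] at h1
    exact tw_ext_of_le (c := (anCoc c).inv) (i := i) (pre_mono hV) h1
  · refine ⟨toP (P := twObj (anCoc c).inv P) (loc (anCoc c).inv i (pre_mono hV) (ofP (cmp c.inv s i V le_rfl hV))),
      tw_ext_of_le hV ?_⟩
    rw [cmp_cmpHom]
    change toP (cmp (anCoc c).inv (loc (anCoc c).inv i (pre_mono hV) (ofP (cmp c.inv s i V le_rfl hV))) i (pre V) _ _) = _
    rw [cmp_loc_self, res_self]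
    rfl

/-- Twisting commutes with direct images. -/
def pushIso (c : Coc 𝒰 X.sheaf) :
    Tw (anCoc c).inv ⋙ An.anPush X ≅ An.anPush X ⋙ (show X.Modules ⥤ X.Modules from Tw c.inv) :=
  NatIso.ofComponents (fun P => @asIso _ _ _ _ (cmpHom c P) (isIso_cmpHom c P)) (fun {P Q} φ => by
    refine hom_ext (T := spc X) (R := X.sheaf) fun V m => ?_
    refine tw_ext (c := c.inv) fun i W hV hi => ?_
    change cmp c.inv (app (cmpHom c Q) V (toP (app (twMap (anCoc c).inv φ) (pre V) (ofP m)))) i W hV hi =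
      cmp c.inv (app (twMap c.inv (show psh P ⟶ psh Q from (An.anPush X).map φ)) V (app (cmpHom c P) V m)) i W hV hi
    rw [cmp_cmpHom, cmp_twMap, cmp_cmpHom]
    change toP (cmp (anCoc c).inv (app (twMap (anCoc c).inv φ) (pre V) (ofP m)) i (pre W) _ _) = _
    rw [cmp_twMap]
    rfl)

/-- The adjunction for `Tw c ⋙ analytify`. -/
def adj1 (c : Coc 𝒰 X.sheaf) :
    (show X.Modules ⥤ X.Modules from Tw c) ⋙ An.analytify X ⊣
      An.anPush X ⋙ (show X.Modules ⥤ X.Modules from Tw c.inv) :=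
  (show (show X.Modules ⥤ X.Modules from Tw c) ⊣ (show X.Modules ⥤ X.Modules from Tw c.inv) from
    twAdj (isInv_inv c)).comp (An.analytifyAdj X)

/-- The adjunction for `analytify ⋙ Tw`. -/
def adj2 (c : Coc 𝒰 X.sheaf) :
    An.analytify X ⋙ Tw (anCoc c) ⊣ Tw (anCoc c).inv ⋙ An.anPush X :=
  (An.analytifyAdj X).comp (twAdj (isInv_inv (anCoc c)))

/-- Analytification commutes with twisting. -/
def twAnIso (c : Coc 𝒰 X.sheaf) :
    (show X.Modules ⥤ X.Modules from Tw c) ⋙ An.analytify X ≅ An.analytify X ⋙ Tw (anCoc c) :=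
  (conjugateIsoEquiv (adj2 c) (adj1 c)).symm (pushIso c)

/-- [TW-AN] -/
theorem tw_analytify (c : Coc 𝒰 X.sheaf) :
    Nonempty ((show X.Modules ⥤ X.Modules from Tw c) ⋙ An.analytify X ≅ An.analytify X ⋙ Tw (anCoc c)) :=
  ⟨twAnIso c⟩

end Groth.Agent.Gaga.H277.TwAn
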